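import Mathlib
import Cfsg.Agent.S4209
import Cfsg.Agent.Lib.Helper63.BB.Defs
import Cfsg.Agent.Lib.Helper59.MC.Struct
import Cfsg.Agent.Lib.Helper85.UnifElt

/-! S4144 project "BB", packages [KB] and tools for [KI], [UC]. -/

set_option autoImplicit false

namespace Cfsg.Agent.Lib.Helper27.BB

open Cfsg.Agent.Lib.Helper63.MC Cfsg.Agent.Lib.Helper63.BB
open scoped commutatorElement

universe u

variable {X : Type u} [Group X]

/-- `H.card * H.relIndex K = K.card` for `H ≤ K`. -/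
theorem card_mul_relIndex_of_le {H K : Subgroup X} (h : H ≤ K) :
    Nat.card H * H.relIndex K = Nat.card K := by
  rw [← Subgroup.relIndex_bot_left, ← Subgroup.relIndex_bot_left (H := K)]
  exact Subgroup.relIndex_mul_relIndex ⊥ H K bot_le h

/-- `κ_g(a) = a⁻¹ (g a g⁻¹)` for `a ∈ L i` lies in `L (i+1)`. -/
theorem kappa_mem_succ {i : ℕ} {a : X} (ha : a ∈ L X i) (g : X) :
    a⁻¹ * (g * a * g⁻¹) ∈ L X (i + 1) := by
  have e : a⁻¹ * (g * a * g⁻¹) = ⁅a⁻¹, g⁆ := by rw [commutatorElement_def]; group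
  rw [e]
  exact Subgroup.commutator_mem_commutator (Subgroup.inv_mem _ ha) (Subgroup.mem_top g)

/-- the elements of `L i` on which `g` acts trivially modulo `L (i+2)` -/
def fixL (g : X) (i : ℕ) : Subgroup X where
  carrier := {a | a ∈ L X i ∧ a⁻¹ * (g * a * g⁻¹) ∈ L X (i + 2)}
  one_mem' := by
    refine ⟨Subgroup.one_mem _, ?_⟩
    have e : (1 : X)⁻¹ * (g * 1 * g⁻¹) = 1 := by group
    rw [e]
    exact Subgroup.one_mem _
  mul_mem' := by
    rintro a b ⟨ha, ha'⟩ ⟨hb, hb'⟩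
    refine ⟨Subgroup.mul_mem _ ha hb, ?_⟩
    have hN : (L X (i + 2)).Normal := inferInstance
    have e : (a * b)⁻¹ * (g * (a * b) * g⁻¹) =
        b⁻¹ * (a⁻¹ * (g * a * g⁻¹)) * b⁻¹⁻¹ * (b⁻¹ * (g * b * g⁻¹)) := by group
    rw [e]
    exact Subgroup.mul_mem _ (hN.conj_mem _ ha' b⁻¹) hb'
  inv_mem' := by
    rintro a ⟨ha, ha'⟩
    refine ⟨Subgroup.inv_mem _ ha, ?_⟩
    have hN : (L X (i + 2)).Normal := inferInstance
    have e : a⁻¹⁻¹ * (g * a⁻¹ * g⁻¹) = a * (a⁻¹ * (g * a * g⁻¹))⁻¹ * a⁻¹ := by group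
    rw [e]
    exact hN.conj_mem _ (Subgroup.inv_mem _ ha') a

theorem mem_fixL {g : X} {i : ℕ} {a : X} :
    a ∈ fixL g i ↔ a ∈ L X i ∧ a⁻¹ * (g * a * g⁻¹) ∈ L X (i + 2) := Iff.rfl

/-- if `|L i : L (i+1)| = p` and `g` acts trivially mod `L (i+2)` on one element of
`L i \ L (i+1)`, then `g ∈ K i`. -/
theorem mem_K_of [Finite X] {p : ℕ} [Fact p.Prime] {i : ℕ}
    (hcard : Nat.card (L X i) = p * Nat.card (L X (i + 1))) {g a : X}
    (ha : a ∈ L X i) (ha' : a ∉ L X (i + 1)) (hκ : a⁻¹ * (g * a * g⁻¹) ∈ L X (i + 2)) :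
    g ∈ K X i := by
  rw [mem_K]
  intro b hb
  have hle : L X (i + 1) ≤ L X i := Subgroup.lowerCentralSeries_antitone _ (Nat.le_succ i)
  have h1 := Cfsg.Agent.Lib.Helper85.UnifElt.le_zpowers_sup hle hcard ha ha' hb
  have h2 : Subgroup.zpowers a ⊔ L X (i + 1) ≤ fixL g i := by
    refine sup_le ?_ ?_
    · rw [Subgroup.zpowers_le]
      exact ⟨ha, hκ⟩
    · intro c hc
      exact ⟨hle hc, kappa_mem_succ hc g⟩
  exact (h2 h1).2

/-- **[KB]** basic facts on the two-step centralizers. -/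
theorem pkgKBasic : PkgKBasic.{u} := by
  intro X _ _ p _ n hn hcard hcl i hi1 hi3
  have hp : p.Prime := Fact.out
  obtain ⟨hL, -⟩ := Cfsg.Agent.Lib.Helper59.MC.pkgStruct X p n (by omega) hcard hcl
  have hc0 : Nat.card (L X i) = p ^ (n - 1 - i) := hL i hi1 (by omega)
  have hc1 : Nat.card (L X (i + 1)) = p ^ (n - 1 - (i + 1)) := hL (i + 1) (by omega) (by omega)
  have hc2 : Nat.card (L X (i + 2)) = p ^ (n - 1 - (i + 2)) := hL (i + 2) (by omega) (by omega)
  have hle1 : L X (i + 1) ≤ L X i := Subgroup.lowerCentralSeries_antitone _ (Nat.le_succ i)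
  have hle2 : L X (i + 2) ≤ L X (i + 1) :=
    Subgroup.lowerCentralSeries_antitone _ (Nat.le_succ _)
  have hcard01 : Nat.card (L X i) = p * Nat.card (L X (i + 1)) := by
    rw [hc0, hc1, ← pow_succ']
    congr 1
    omega
  have hcard12 : Nat.card (L X (i + 1)) = p * Nat.card (L X (i + 2)) := by
    rw [hc1, hc2, ← pow_succ']
    congr 1
    omega
  have hpos2 : 0 < Nat.card (L X (i + 2)) := Nat.card_pos
  have hpos1 : 0 < Nat.card (L X (i + 1)) := Nat.card_pos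
  have h2le := hp.two_le
  -- (a)
  have hA : L X 1 ≤ K X i := by
    intro g hg
    rw [mem_K]
    intro a ha
    have e : a⁻¹ * (g * a * g⁻¹) = ⁅a⁻¹, g⁆ := by rw [commutatorElement_def]; group
    rw [e]
    exact Cfsg.Agent.S4209.lcs_comm_top i 1
      (Subgroup.commutator_mem_commutator (Subgroup.inv_mem _ ha) hg)
  -- (b)
  have hB : K X i ≠ ⊤ := by
    intro htop
    have hsub : L X (i + 1) ≤ L X (i + 2) := by
      show ⁅L X i, (⊤ : Subgroup X)⁆ ≤ L X (i + 2)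
      rw [Subgroup.commutator_le]
      intro a ha g _
      have hg : g ∈ K X i := by rw [htop]; exact Subgroup.mem_top g
      have h3 := (mem_K.mp hg) a⁻¹ (Subgroup.inv_mem _ ha)
      have e : a⁻¹⁻¹ * (g * a⁻¹ * g⁻¹) = ⁅a, g⁆ := by rw [commutatorElement_def]; group
      rwa [e] at h3
    have h4 := Subgroup.card_le_of_le hsub
    rw [hcard12] at h4
    nlinarith
  refine ⟨hA, hB, ?_⟩
  -- (c)
  obtain ⟨a0, ha0, ha0'⟩ : ∃ a0 ∈ L X i, a0 ∉ L X (i + 1) := by
    by_contra hcon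
    push Not at hcon
    have h3 : L X i ≤ L X (i + 1) := hcon
    have h4 := Subgroup.card_le_of_le h3
    rw [hcard01] at h4
    nlinarith
  let f : X →* ↥(L X (i + 1)) ⧸ (L X (i + 2)).subgroupOf (L X (i + 1)) :=
    { toFun := fun g => QuotientGroup.mk ⟨a0⁻¹ * (g * a0 * g⁻¹), kappa_mem_succ ha0 g⟩
      map_one' := by
        rw [QuotientGroup.eq_one_iff, Subgroup.mem_subgroupOf]
        show a0⁻¹ * (1 * a0 * 1⁻¹) ∈ L X (i + 2)
        have e : a0⁻¹ * (1 * a0 * 1⁻¹) = 1 := by group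
        rw [e]
        exact Subgroup.one_mem _
      map_mul' := by
        intro g h
        rw [← QuotientGroup.mk_mul, QuotientGroup.eq, Subgroup.mem_subgroupOf]
        show (a0⁻¹ * (g * h * a0 * (g * h)⁻¹))⁻¹ *
          ((a0⁻¹ * (g * a0 * g⁻¹)) * (a0⁻¹ * (h * a0 * h⁻¹))) ∈ L X (i + 2)
        have e : (a0⁻¹ * (g * h * a0 * (g * h)⁻¹))⁻¹ *
            ((a0⁻¹ * (g * a0 * g⁻¹)) * (a0⁻¹ * (h * a0 * h⁻¹))) =
            ⁅(a0⁻¹ * (h * a0 * h⁻¹))⁻¹, g⁆⁻¹ := by
          rw [commutatorElement_def]; group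
        rw [e]
        exact Subgroup.inv_mem _ (Subgroup.commutator_mem_commutator
          (Subgroup.inv_mem _ (kappa_mem_succ ha0 h)) (Subgroup.mem_top g)) }
  have hker : f.ker = K X i := by
    ext g
    rw [MonoidHom.mem_ker]
    show (QuotientGroup.mk (⟨a0⁻¹ * (g * a0 * g⁻¹), kappa_mem_succ ha0 g⟩ : ↥(L X (i + 1))) :
      ↥(L X (i + 1)) ⧸ (L X (i + 2)).subgroupOf (L X (i + 1))) = 1 ↔ g ∈ K X i
    rw [QuotientGroup.eq_one_iff, Subgroup.mem_subgroupOf]
    constructor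
    · intro h
      exact mem_K_of hcard01 ha0 ha0' h
    · intro h
      exact (mem_K.mp h) a0 ha0
  have hQ : Nat.card (↥(L X (i + 1)) ⧸ (L X (i + 2)).subgroupOf (L X (i + 1))) = p := by
    have h3 := card_mul_relIndex_of_le hle2
    rw [hcard12, mul_comm] at h3
    exact Nat.eq_of_mul_eq_mul_right hpos2 h3
  have hidx : (K X i).index ∣ p := by
    rw [← hker, Subgroup.index_ker, ← hQ]
    exact Subgroup.card_subgroup_dvd_card _
  have hidx' : (K X i).index = p := by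
    rcases (Nat.dvd_prime hp).mp hidx with h | h
    · exact absurd (Subgroup.index_eq_one.mp h) hB
    · exact h
  have h5 := Subgroup.card_mul_index (K X i)
  rw [hidx', hcard] at h5
  have h6 : p ^ n = p ^ (n - 1) * p := by
    rw [← pow_succ]
    congr 1
    omega
  rw [h6] at h5
  exact Nat.eq_of_mul_eq_mul_right hp.pos h5

end Cfsg.Agent.Lib.Helper27.BB
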