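import Mathlib
import Cfsg.Agent.Lib.Helper63.BB.Defs
import Cfsg.Agent.Lib.Helper59.MC.Struct
import Cfsg.Agent.Lib.Helper27.BB.KBasic

/-! S4144 project "BB", package [KI]. -/

set_option autoImplicit false

namespace Cfsg.Agent.Lib.Helper27.BB

open Cfsg.Agent.Lib.Helper63.MC Cfsg.Agent.Lib.Helper63.BB
open scoped commutatorElement

universe u

/-- **[KI]** an element outside `K X i` acts injectively `L i / L (i+1) → L (i+1) / L (i+2)`. -/
theorem pkgKInj : PkgKInj.{u} := by
  intro X _ _ p _ n hn hcard hcl i hi1 hi3 g hg a ha ha'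
  have hp : p.Prime := Fact.out
  obtain ⟨hL, -⟩ := Cfsg.Agent.Lib.Helper59.MC.pkgStruct X p n (by omega) hcard hcl
  intro hκ
  apply hg
  refine mem_K_of (p := p) ?_ ha ha' hκ
  rw [hL i hi1 (by omega), hL (i + 1) (by omega) (by omega), ← pow_succ']
  congr 1
  omega

end Cfsg.Agent.Lib.Helper27.BB
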