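import Mathlib
import Cfsg.Agent.Lib.Helper63.BB.Defs
import Cfsg.Agent.Lib.Helper59.MC.Struct
import Cfsg.Agent.Lib.Helper85.UnifElt
import Cfsg.Agent.Lib.Helper27.BB.KBasic

/-! S4144 project "BB", package [UC]. -/

set_option autoImplicit false

namespace Cfsg.Agent.Lib.Helper27.BB

open Cfsg.Agent.Lib.Helper63.MC Cfsg.Agent.Lib.Helper63.BB
open scoped commutatorElement

universe u

/-- If `C(s) L 1 = X` for an element `s` of a finite `p`-group `X` with `|X : L 1| = p ^ 2`
and `s ∉ L 1`, then `L 1 ≤ L 2`. -/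
theorem L1_le_L2_of_centralizer_sup {X : Type u} [Group X] [Finite X] {p : ℕ} [Fact p.Prime]
    {n : ℕ} (hn : 2 ≤ n) (hcard : Nat.card X = p ^ n) (hc1 : Nat.card (L X 1) = p ^ (n - 2))
    {s : X} (hs1 : s ∉ L X 1)
    (htop : Subgroup.centralizer ({s} : Set X) ⊔ L X 1 = ⊤) : L X 1 ≤ L X 2 := by
  have hp : p.Prime := Fact.out
  -- `L 1` is central modulo `L 2`
  have hA : ∀ a ∈ L X 1, ∀ g : X,
      (QuotientGroup.mk (a * g) : X ⧸ L X 2) = QuotientGroup.mk (g * a) := by
    intro a ha g
    rw [QuotientGroup.eq]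
    have e : (a * g)⁻¹ * (g * a) = ⁅a⁻¹, g⁻¹⁆⁻¹ := by rw [commutatorElement_def]; group
    rw [e]
    exact Subgroup.inv_mem _ (Subgroup.commutator_mem_commutator (Subgroup.inv_mem _ ha)
      (Subgroup.mem_top _))
  -- `s` is central modulo `L 2`
  have hB : ∀ g : X, (QuotientGroup.mk (s * g) : X ⧸ L X 2) = QuotientGroup.mk (g * s) := by
    have hD : Subgroup.centralizer ({s} : Set X) ⊔ L X 1 ≤
        Subgroup.comap (QuotientGroup.mk' (L X 2))
          (Subgroup.centralizer ({(QuotientGroup.mk s : X ⧸ L X 2)} : Set (X ⧸ L X 2))) := by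
      refine sup_le ?_ ?_
      · intro g hg
        rw [Subgroup.mem_comap, Subgroup.mem_centralizer_iff]
        intro y hy
        rw [Set.mem_singleton_iff] at hy
        subst hy
        have h1 := Subgroup.mem_centralizer_iff.mp hg s (Set.mem_singleton s)
        show (QuotientGroup.mk s : X ⧸ L X 2) * QuotientGroup.mk g =
          QuotientGroup.mk g * QuotientGroup.mk s
        rw [← QuotientGroup.mk_mul, ← QuotientGroup.mk_mul, h1]
      · intro a ha
        rw [Subgroup.mem_comap, Subgroup.mem_centralizer_iff]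
        intro y hy
        rw [Set.mem_singleton_iff] at hy
        subst hy
        show (QuotientGroup.mk s : X ⧸ L X 2) * QuotientGroup.mk a =
          QuotientGroup.mk a * QuotientGroup.mk s
        rw [← QuotientGroup.mk_mul, ← QuotientGroup.mk_mul]
        exact (hA a ha s).symm
    intro g
    have hg : g ∈ Subgroup.comap (QuotientGroup.mk' (L X 2))
        (Subgroup.centralizer ({(QuotientGroup.mk s : X ⧸ L X 2)} : Set (X ⧸ L X 2))) :=
      hD (by rw [htop]; exact Subgroup.mem_top g)
    rw [Subgroup.mem_comap, Subgroup.mem_centralizer_iff] at hg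
    have h2 := hg (QuotientGroup.mk s) (Set.mem_singleton _)
    rw [QuotientGroup.mk_mul, QuotientGroup.mk_mul]
    exact h2
  -- the preimage of the centre of `X / L 2` contains `⟨s⟩ L 1`
  have hZ : Subgroup.zpowers s ⊔ L X 1 ≤
      Subgroup.comap (QuotientGroup.mk' (L X 2)) (Subgroup.center (X ⧸ L X 2)) := by
    refine sup_le ?_ ?_
    · rw [Subgroup.zpowers_le, Subgroup.mem_comap, Subgroup.mem_center_iff]
      intro y
      obtain ⟨g, rfl⟩ := QuotientGroup.mk_surjective y
      show (QuotientGroup.mk g : X ⧸ L X 2) * QuotientGroup.mk s =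
        QuotientGroup.mk s * QuotientGroup.mk g
      rw [← QuotientGroup.mk_mul, ← QuotientGroup.mk_mul]
      exact (hB g).symm
    · intro a ha
      rw [Subgroup.mem_comap, Subgroup.mem_center_iff]
      intro y
      obtain ⟨g, rfl⟩ := QuotientGroup.mk_surjective y
      show (QuotientGroup.mk g : X ⧸ L X 2) * QuotientGroup.mk a =
        QuotientGroup.mk a * QuotientGroup.mk g
      rw [← QuotientGroup.mk_mul, ← QuotientGroup.mk_mul]
      exact (hA a ha g).symm
  -- index of `⟨s⟩ L 1` divides `p`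
  have hDidx : (Subgroup.zpowers s ⊔ L X 1 : Subgroup X).index ∣ p := by
    obtain ⟨b, hb, hbc⟩ := (Nat.dvd_prime_pow hp).1
      (hcard ▸ Subgroup.card_subgroup_dvd_card (Subgroup.zpowers s ⊔ L X 1 : Subgroup X))
    have hlt : Nat.card (L X 1) < Nat.card (Subgroup.zpowers s ⊔ L X 1 : Subgroup X) := by
      by_contra hcon
      have h1 : L X 1 = Subgroup.zpowers s ⊔ L X 1 :=
        Subgroup.eq_of_le_of_card_ge le_sup_right (not_lt.1 hcon)
      apply hs1
      rw [h1]
      exact Subgroup.mem_sup_left (Subgroup.mem_zpowers s)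
    rw [hc1, hbc] at hlt
    have h2 : n - 2 < b := (Nat.pow_lt_pow_iff_right hp.one_lt).1 hlt
    have h3 := Subgroup.card_mul_index (Subgroup.zpowers s ⊔ L X 1 : Subgroup X)
    rw [hbc, hcard] at h3
    have h4 : p ^ n = p ^ b * p ^ (n - b) := by
      rw [← pow_add]
      congr 1
      omega
    rw [h4] at h3
    have h5 : (Subgroup.zpowers s ⊔ L X 1 : Subgroup X).index = p ^ (n - b) :=
      Nat.eq_of_mul_eq_mul_left (pow_pos hp.pos b) h3
    rw [h5]
    have h6 : n - b ≤ 1 := by omega
    calc p ^ (n - b) ∣ p ^ 1 := pow_dvd_pow p h6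
      _ = p := pow_one p
  -- the central quotient of `X / L 2` is cyclic
  have hcardQ : Nat.card ((X ⧸ L X 2) ⧸ Subgroup.center (X ⧸ L X 2)) ∣ p := by
    have h1 : (Subgroup.comap (QuotientGroup.mk' (L X 2))
        (Subgroup.center (X ⧸ L X 2))).index = (Subgroup.center (X ⧸ L X 2)).index :=
      Subgroup.index_comap_of_surjective _ (QuotientGroup.mk'_surjective _)
    have h2 : (Subgroup.center (X ⧸ L X 2)).index ∣ p := by
      rw [← h1]
      exact dvd_trans (Subgroup.index_dvd_of_le hZ) hDidx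
    exact h2
  have hcyc : IsCyclic ((X ⧸ L X 2) ⧸ Subgroup.center (X ⧸ L X 2)) := by
    rcases (Nat.dvd_prime hp).mp hcardQ with h | h
    · have hsub : Subsingleton ((X ⧸ L X 2) ⧸ Subgroup.center (X ⧸ L X 2)) :=
        (Nat.card_eq_one_iff_unique.mp h).1
      exact isCyclic_of_subsingleton
    · exact isCyclic_of_prime_card h
  have hcomm : ∀ a b : X ⧸ L X 2, a * b = b * a := by
    have h1 := MonoidHom.isMulCommutative_of_isCyclic_of_ker_le_center
      (QuotientGroup.mk' (Subgroup.center (X ⧸ L X 2)))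
      (by rw [QuotientGroup.ker_mk'])
    intro a b
    exact h1.is_comm.comm a b
  -- hence `L 1 ≤ L 2`
  show ⁅L X 0, (⊤ : Subgroup X)⁆ ≤ L X 2
  rw [Subgroup.commutator_le]
  intro x _ y _
  rw [← QuotientGroup.eq_one_iff (N := L X 2)]
  have h1 : (QuotientGroup.mk ⁅x, y⁆ : X ⧸ L X 2) =
      ⁅(QuotientGroup.mk x : X ⧸ L X 2), QuotientGroup.mk y⁆ := by
    rw [commutatorElement_def, commutatorElement_def]
    simp only [QuotientGroup.mk_mul, QuotientGroup.mk_inv]
  rw [h1, commutatorElement_eq_one_iff_mul_comm]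
  exact hcomm _ _

/-- **[UC]** a uniform element has centralizer of order `p ^ 2` and central `p`-th power. -/
theorem pkgUnifCent_of (hKB : PkgKBasic.{u}) (hKI : PkgKInj.{u}) : PkgUnifCent.{u} := by
  intro X _ _ p _ n hn hcard hcl s hs
  have hp : p.Prime := Fact.out
  obtain ⟨hL, hpow⟩ := Cfsg.Agent.Lib.Helper59.MC.pkgStruct X p n (by omega) hcard hcl
  have hc1 : Nat.card (L X 1) = p ^ (n - 2) := by
    rw [hL 1 le_rfl (by omega)]
    congr 1
  have hc2 : Nat.card (L X 2) = p ^ (n - 3) := by
    rw [hL 2 (by omega) (by omega)]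
    congr 1
  -- (1)
  have hs1 : s ∉ L X 1 := fun h =>
    hs 1 le_rfl (by omega) ((hKB X p n hn hcard hcl 1 le_rfl (by omega)).1 h)
  -- `L (n-1) = ⊥`, `L (n-2)` central of order `p`
  have hbot : L X (n - 1) = ⊥ := by
    apply Subgroup.eq_bot_of_card_eq
    rw [hL (n - 1) (by omega) le_rfl]
    simp
  have hcen : L X (n - 2) ≤ Subgroup.center X := by
    intro a ha
    rw [Subgroup.mem_center_iff]
    intro g
    have h1 : ⁅a, g⁆ ∈ L X (n - 2 + 1) := Cfsg.Agent.Lib.Helper85.UnifElt.comm_mem_L ha g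
    have h2 : n - 2 + 1 = n - 1 := by omega
    rw [h2, hbot, Subgroup.mem_bot] at h1
    exact (commutatorElement_eq_one_iff_mul_comm.mp h1).symm
  have hcn2 : Nat.card (L X (n - 2)) = p := by
    rw [hL (n - 2) (by omega) (by omega)]
    have : n - 1 - (n - 2) = 1 := by omega
    rw [this, pow_one]
  -- (2)
  have hinf : Subgroup.centralizer ({s} : Set X) ⊓ L X 1 = L X (n - 2) := by
    apply le_antisymm
    · rintro a ⟨hac, ha1⟩
      have hcomm : s * a = a * s := Subgroup.mem_centralizer_iff.mp hac s (Set.mem_singleton s)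
      have key : ∀ i, 1 ≤ i → i ≤ n - 2 → a ∈ L X i := by
        intro i hi1
        induction i, hi1 using Nat.le_induction with
        | base => intro _; exact ha1
        | succ i hi1 ih =>
          intro hi
          have hai := ih (by omega)
          by_contra hnot
          have h3 := hKI X p n hn hcard hcl i hi1 (by omega) s (hs i hi1 (by omega)) a hai hnot
          apply h3
          have e : a⁻¹ * (s * a * s⁻¹) = 1 := by rw [hcomm]; group
          rw [e]
          exact Subgroup.one_mem _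
      exact key (n - 2) (by omega) le_rfl
    · intro a ha
      exact ⟨Subgroup.center_le_centralizer _ (hcen ha),
        Subgroup.lowerCentralSeries_antitone _ (by omega) ha⟩
  -- (3)
  have hne : Subgroup.centralizer ({s} : Set X) ⊔ L X 1 ≠ ⊤ := by
    intro htop
    have h1 := L1_le_L2_of_centralizer_sup (by omega) hcard hc1 hs1 htop
    have h2 := Subgroup.card_le_of_le h1
    rw [hc1, hc2] at h2
    have h3 : n - 2 ≤ n - 3 := (Nat.pow_le_pow_iff_right hp.one_lt).1 h2
    omega
  have hsC : s ∈ Subgroup.centralizer ({s} : Set X) := by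
    rw [Subgroup.mem_centralizer_iff]
    intro y hy
    rw [Set.mem_singleton_iff] at hy
    rw [hy]
  have hEcard : Nat.card (Subgroup.centralizer ({s} : Set X) ⊔ L X 1 : Subgroup X) =
      p ^ (n - 1) := by
    obtain ⟨b, hb, hbc⟩ := (Nat.dvd_prime_pow hp).1
      (hcard ▸ Subgroup.card_subgroup_dvd_card
        (Subgroup.centralizer ({s} : Set X) ⊔ L X 1 : Subgroup X))
    have hlt : Nat.card (L X 1) <
        Nat.card (Subgroup.centralizer ({s} : Set X) ⊔ L X 1 : Subgroup X) := by
      by_contra hcon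
      have h1 : L X 1 = Subgroup.centralizer ({s} : Set X) ⊔ L X 1 :=
        Subgroup.eq_of_le_of_card_ge le_sup_right (not_lt.1 hcon)
      apply hs1
      rw [h1]
      exact Subgroup.mem_sup_left hsC
    rw [hc1, hbc] at hlt
    have h2 : n - 2 < b := (Nat.pow_lt_pow_iff_right hp.one_lt).1 hlt
    have h3 : b ≠ n := by
      intro hbn
      apply hne
      apply Subgroup.eq_top_of_card_eq
      rw [hbc, hcard, hbn]
    have h4 : b = n - 1 := by omega
    rw [hbc, h4]
  have hcardC : Nat.card (Subgroup.centralizer ({s} : Set X)) = p ^ 2 := by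
    have h1 : (L X 1).relIndex (Subgroup.centralizer ({s} : Set X) ⊔ L X 1) =
        (L X 1).relIndex (Subgroup.centralizer ({s} : Set X)) :=
      Subgroup.relIndex_sup_right _ _
    have h2 := card_mul_relIndex_of_le
      (le_sup_right : L X 1 ≤ Subgroup.centralizer ({s} : Set X) ⊔ L X 1)
    rw [hEcard, hc1, h1] at h2
    have h3 : (Subgroup.centralizer ({s} : Set X) ⊓ L X 1).relIndex
        (Subgroup.centralizer ({s} : Set X)) =
        (L X 1).relIndex (Subgroup.centralizer ({s} : Set X)) :=
      Subgroup.inf_relIndex_left _ _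
    have h4 := card_mul_relIndex_of_le
      (inf_le_left : Subgroup.centralizer ({s} : Set X) ⊓ L X 1 ≤
        Subgroup.centralizer ({s} : Set X))
    rw [h3, hinf, hcn2] at h4
    have h5 : p ^ (n - 1) = p ^ (n - 2) * p := by
      rw [← pow_succ]
      congr 1
      omega
    rw [h5] at h2
    have h6 : (L X 1).relIndex (Subgroup.centralizer ({s} : Set X)) = p :=
      Nat.eq_of_mul_eq_mul_left (pow_pos hp.pos _) h2
    rw [h6] at h4
    rw [← h4, sq]
  -- (4)
  have hsp : s ^ p ∈ Subgroup.center X := by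
    apply hcen
    rw [← hinf]
    exact ⟨Subgroup.pow_mem _ hsC p, hpow s⟩
  exact ⟨hcardC, hsp, hs1⟩

end Cfsg.Agent.Lib.Helper27.BB
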